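import Mathlib
import Cfsg.Agent.S4035
import Cfsg.Agent.Lib.Helper67.SylowLemmas
import Cfsg.Agent.Lib.Helper81.CS3.Defs

/-!
# CS3 (S4284): shared basics [B0], [B1]

`Hyp G m n`: no abelian direct factor, `1 < m`, `1 < n`, `gcd(m,n) = 1`, and the centralizer
indices are exactly `1, m, m n`.

* `idx_cases`, `exists_idx_m`, `exists_idx_mn`, `idx_eq_one_iff`;
* [B0] `prime_dvd_mul`: every prime divisor of `|G|` divides `m n`;
* [B1] `center_sylow_le`, `sylow_not_le_center`, `factorization_centralizer`.
-/

set_option autoImplicit false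

namespace Cfsg.Agent.Lib.Helper71.CS3

open Subgroup Cfsg.Agent.Lib.Helper81.CS3

universe u

variable {G : Type u} [Group G]

theorem idx_cases {m n : ℕ} (hyp : Hyp G m n) (x : G) :
    (centralizer ({x} : Set G)).index = 1 ∨ (centralizer ({x} : Set G)).index = m ∨
      (centralizer ({x} : Set G)).index = m * n := by
  have h := hyp.2.2.2.2
  have hx : (centralizer ({x} : Set G)).index ∈
      Set.range (fun x : G => (centralizer ({x} : Set G)).index) := ⟨x, rfl⟩
  rw [h] at hx
  simpa using hx

theorem exists_idx_m {m n : ℕ} (hyp : Hyp G m n) :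
    ∃ x : G, (centralizer ({x} : Set G)).index = m := by
  have h := hyp.2.2.2.2
  have hm : m ∈ ({1, m, m * n} : Set ℕ) := by simp
  rw [← h] at hm
  exact hm

theorem exists_idx_mn {m n : ℕ} (hyp : Hyp G m n) :
    ∃ x : G, (centralizer ({x} : Set G)).index = m * n := by
  have h := hyp.2.2.2.2
  have hm : m * n ∈ ({1, m, m * n} : Set ℕ) := by simp
  rw [← h] at hm
  exact hm

theorem idx_eq_one_iff (x : G) : (centralizer ({x} : Set G)).index = 1 ↔ x ∈ center G := by
  rw [Subgroup.index_eq_one]
  constructor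
  · intro h
    rw [Subgroup.mem_center_iff]
    intro g
    have hg : g ∈ centralizer ({x} : Set G) := by
      rw [h]
      exact mem_top g
    simp only [mem_centralizer_iff, Set.mem_singleton_iff, forall_eq] at hg
    exact hg.symm
  · intro h
    rw [eq_top_iff]
    intro g _
    simp only [mem_centralizer_iff, Set.mem_singleton_iff, forall_eq]
    exact ((Subgroup.mem_center_iff.mp h) g).symm

/-- [B1] `Z(S) ≤ Z(G)` for a Sylow `s`-subgroup, `s ∣ m`. -/
theorem center_sylow_le [Finite G] {m n : ℕ} (hyp : Hyp G m n) {s : ℕ} [Fact s.Prime]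
    (hs : s ∣ m) (S : Sylow s G) {z : G} (_hz : z ∈ S) (hc : ∀ y ∈ S, z * y = y * z) :
    z ∈ center G := by
  rw [← idx_eq_one_iff]
  have hle : (S : Subgroup G) ≤ centralizer ({z} : Set G) := by
    intro y hy
    simp only [mem_centralizer_iff, Set.mem_singleton_iff, forall_eq]
    exact hc y hy
  have hnd : ¬ s ∣ (centralizer ({z} : Set G)).index := fun h =>
    S.not_dvd_index (h.trans (Subgroup.index_dvd_of_le hle))
  rcases idx_cases hyp z with h | h | h
  · exact h
  · exfalso
    apply hnd
    rw [h]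
    exact hs
  · exfalso
    apply hnd
    rw [h]
    exact hs.mul_right n

/-- [B1] a Sylow `s`-subgroup, `s ∣ m`, is not central. -/
theorem sylow_not_le_center [Finite G] {m n : ℕ} (hyp : Hyp G m n) {s : ℕ} [Fact s.Prime]
    (hs : s ∣ m) (S : Sylow s G) : ¬ (S : Subgroup G) ≤ center G := by
  intro hle
  obtain ⟨x, hx⟩ := exists_idx_m hyp
  have hle' : (S : Subgroup G) ≤ centralizer ({x} : Set G) := by
    intro y hy
    simp only [mem_centralizer_iff, Set.mem_singleton_iff, forall_eq]
    exact (Subgroup.mem_center_iff.mp (hle hy)) x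
  apply S.not_dvd_index
  refine Dvd.dvd.trans ?_ (Subgroup.index_dvd_of_le hle')
  rw [hx]
  exact hs

/-- [B1] the `s`-part of `|C(x)|` for a non-central `x` is the `s`-part of `|G|` divided by the
`s`-part of `m`. -/
theorem factorization_centralizer [Finite G] {m n : ℕ} (hyp : Hyp G m n) {s : ℕ}
    [Fact s.Prime] (hs : s ∣ m) {x : G} (hx : x ∉ center G) :
    (Nat.card (centralizer ({x} : Set G))).factorization s + m.factorization s
      = (Nat.card G).factorization s := by
  have hm0 : m ≠ 0 := by
    have := hyp.2.1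
    omega
  have hn0 : n ≠ 0 := by
    have := hyp.2.2.1
    omega
  have hcard := Subgroup.card_mul_index (centralizer ({x} : Set G))
  have hc0 : Nat.card (centralizer ({x} : Set G)) ≠ 0 := Nat.card_pos.ne'
  have hsn : n.factorization s = 0 := by
    apply Nat.factorization_eq_zero_of_not_dvd
    intro hdn
    have h1 : s ∣ Nat.gcd m n := Nat.dvd_gcd hs hdn
    rw [hyp.2.2.2.1] at h1
    exact (Fact.out : s.Prime).one_lt.ne' (Nat.dvd_one.mp h1)
  rcases idx_cases hyp x with h | h | h
  · exact absurd ((idx_eq_one_iff x).mp h) hx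
  · rw [← hcard, h, Nat.factorization_mul hc0 hm0]
    simp
  · rw [← hcard, h, Nat.factorization_mul hc0 (mul_ne_zero hm0 hn0),
      Nat.factorization_mul hm0 hn0]
    simp [hsn]

/-- [B0] every prime divisor of `|G|` divides `m n`. -/
theorem prime_dvd_mul [Finite G] {m n : ℕ} (hyp : Hyp G m n) {r : ℕ} (hr : r.Prime)
    (hd : r ∣ Nat.card G) : r ∣ m * n := by
  by_contra hnd
  haveI : Fact r.Prime := ⟨hr⟩
  have hidx : ∀ x : G, ¬ r ∣ (centralizer ({x} : Set G)).index := by
    intro x hx
    rcases idx_cases hyp x with h | h | h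
    · rw [h] at hx
      exact hr.one_lt.ne' (Nat.dvd_one.mp hx)
    · rw [h] at hx
      exact hnd (hx.mul_right n)
    · rw [h] at hx
      exact hnd hx
  obtain ⟨R⟩ : Nonempty (Sylow r G) := inferInstance
  obtain ⟨hRn, H0, hH0n, -, hdisj, hsup⟩ := Cfsg.Agent.S4035.result (p := r) (fun x _ => by
    rw [Cfsg.Agent.Lib.Helper67.ncard_conjClasses_carrier]
    exact hidx x) R
  have hRc : (R : Subgroup G) ≤ center G := by
    intro x hx
    rw [← idx_eq_one_iff]
    have hH0le : H0 ≤ centralizer ({x} : Set G) := by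
      intro y hy
      simp only [mem_centralizer_iff, Set.mem_singleton_iff, forall_eq]
      exact Subgroup.commute_of_normal_of_disjoint (R : Subgroup G) H0 hRn hH0n
        (disjoint_iff.mpr hdisj) x y hx hy
    have h1 : (centralizer ({x} : Set G)).index ∣ H0.index := Subgroup.index_dvd_of_le hH0le
    have h2 : H0.index ∣ Nat.card (R : Subgroup G) := by
      haveI := hH0n
      have h3 := Subgroup.relIndex_sup_right (H := (R : Subgroup G)) (K := H0)
      rw [hsup, Subgroup.relIndex_top_right] at h3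
      rw [h3]
      exact Subgroup.relIndex_dvd_card _ _
    obtain ⟨k, hk⟩ := IsPGroup.iff_card.mp R.isPGroup'
    rw [hk] at h2
    obtain ⟨j, -, hj⟩ := (Nat.dvd_prime_pow hr).mp (h1.trans h2)
    rcases Nat.eq_zero_or_pos j with rfl | hjpos
    · simpa using hj
    · exfalso
      apply hidx x
      rw [hj]
      exact dvd_pow_self r hjpos.ne'
  have hRcomm : IsMulCommutative (R : Subgroup G) :=
    ⟨⟨fun a b => Subtype.ext ((Subgroup.mem_center_iff.mp (hRc b.2)) a)⟩⟩
  have hRbot : (R : Subgroup G) = ⊥ :=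
    hyp.1 (R : Subgroup G) H0 hRn hH0n hdisj hsup hRcomm
  have h4 : r ∣ Nat.card (R : Subgroup G) := R.dvd_card_of_dvd_card hd
  rw [hRbot, Subgroup.card_bot] at h4
  exact hr.one_lt.ne' (Nat.dvd_one.mp h4)

end Cfsg.Agent.Lib.Helper71.CS3
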