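import Mathlib
import Cfsg.Agent.Lib.Helper71.CS3.Basics

/-!
# CS3 (S4284): shared basic [B5] (`good_split`), with own copies of [B2], [B4]

For a good element `a` (index `m`, order a power of a prime `s ∣ m`):
`C(a) = S_a × N` with `S_a` the normal Sylow `s`-subgroup of `C(a)`, `N` a normal
`s'`-complement, and every `y ∈ N` has `|N : C_N(y)| ∈ {1, n}`.
-/

set_option autoImplicit false

namespace Cfsg.Agent.Lib.Helper71.CS3

open Subgroup Cfsg.Agent.Lib.Helper81.CS3

universe u

variable {G : Type u} [Group G]

/-- [B2] commuting elements of coprime orders: `C(xy) = C(x) ∩ C(y)`. -/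
theorem cent_mul_coprime (x y : G) (hc : Commute x y)
    (hco : (orderOf x).Coprime (orderOf y)) :
    centralizer ({x * y} : Set G) = centralizer ({x} : Set G) ⊓ centralizer ({y} : Set G) := by
  apply le_antisymm
  · intro g hg
    simp only [mem_centralizer_iff, Set.mem_singleton_iff, forall_eq] at hg
    have hg' : Commute (x * y) g := hg
    rw [mem_inf]
    constructor
    · obtain ⟨k, hk⟩ := exists_pow_eq_self_of_coprime (x := x) hco.symm
      have h1 : (x * y) ^ orderOf y = x ^ orderOf y := by
        rw [hc.mul_pow, pow_orderOf_eq_one, mul_one]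
      have h2 : Commute ((x ^ orderOf y) ^ k) g := by
        rw [← h1]
        exact (hg'.pow_left _).pow_left _
      rw [hk] at h2
      simp only [mem_centralizer_iff, Set.mem_singleton_iff, forall_eq]
      exact h2
    · obtain ⟨k, hk⟩ := exists_pow_eq_self_of_coprime (x := y) hco
      have h1 : (x * y) ^ orderOf x = y ^ orderOf x := by
        rw [hc.mul_pow, pow_orderOf_eq_one, one_mul]
      have h2 : Commute ((y ^ orderOf x) ^ k) g := by
        rw [← h1]
        exact (hg'.pow_left _).pow_left _
      rw [hk] at h2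
      simp only [mem_centralizer_iff, Set.mem_singleton_iff, forall_eq]
      exact h2
  · intro g hg
    rw [mem_inf] at hg
    simp only [mem_centralizer_iff, Set.mem_singleton_iff, forall_eq] at hg ⊢
    rw [mul_assoc, hg.2, ← mul_assoc, hg.1, mul_assoc]

/-- The centralizer of an element inside a subgroup. -/
theorem cent_subtype (C : Subgroup G) (y : ↥C) :
    centralizer ({y} : Set ↥C) = (centralizer ({(y : G)} : Set G)).subgroupOf C := by
  ext g
  simp only [mem_centralizer_iff, Set.mem_singleton_iff, forall_eq, mem_subgroupOf]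
  constructor
  · intro h
    exact congrArg Subtype.val h
  · intro h
    exact Subtype.ext h

theorem idx_subtype (C : Subgroup G) (y : ↥C) :
    (centralizer ({y} : Set ↥C)).index = (centralizer ({(y : G)} : Set G)).relIndex C := by
  rw [cent_subtype]
  rfl

/-- Centralizer indices are invariant under isomorphisms. -/
theorem idx_mulEquiv {A B : Type*} [Group A] [Group B] (e : A ≃* B) (y : A) :
    (centralizer ({e y} : Set B)).index = (centralizer ({y} : Set A)).index := by
  have h : centralizer ({e y} : Set B) = (centralizer ({y} : Set A)).map (e : A →* B) := by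
    ext g
    simp only [mem_centralizer_iff, Set.mem_singleton_iff, forall_eq, mem_map]
    constructor
    · intro hg
      refine ⟨e.symm g, ?_, by simp⟩
      apply e.injective
      simpa using hg
    · rintro ⟨g', hg', rfl⟩
      simp only [MonoidHom.coe_coe]
      rw [← map_mul, ← map_mul, hg']
  rw [h, Subgroup.index_map_equiv]

/-- [B4] `a` of index `m`, `y ∈ C(a)` of coprime order: `|C(a) : C(a) ∩ C(y)| ∈ {1, n}`. -/
theorem relIndex_cases {m n : ℕ} (hyp : Hyp G m n) {a y : G}
    (ha : (centralizer ({a} : Set G)).index = m) (hc : Commute a y)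
    (hco : (orderOf a).Coprime (orderOf y)) :
    (centralizer ({y} : Set G)).relIndex (centralizer ({a} : Set G)) = 1 ∨
      (centralizer ({y} : Set G)).relIndex (centralizer ({a} : Set G)) = n := by
  have hm : 1 < m := hyp.2.1
  have h1 := cent_mul_coprime a y hc hco
  have h2 : (centralizer ({a} : Set G) ⊓ centralizer ({y} : Set G)).relIndex
      (centralizer ({a} : Set G)) * (centralizer ({a} : Set G)).index
        = (centralizer ({a} : Set G) ⊓ centralizer ({y} : Set G)).index :=
    Subgroup.relIndex_mul_index inf_le_left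
  rw [Subgroup.inf_relIndex_left, ha, ← h1] at h2
  rcases idx_cases hyp (a * y) with h | h | h
  · rw [h] at h2
    have h3 : m ∣ 1 := Dvd.intro_left _ h2
    have h4 := Nat.dvd_one.mp h3
    omega
  · left
    rw [h] at h2
    exact Nat.eq_of_mul_eq_mul_right (by omega : 0 < m) (by rw [h2, one_mul])
  · right
    rw [h] at h2
    exact Nat.eq_of_mul_eq_mul_right (by omega : 0 < m) (by rw [h2, mul_comm])

/-- [B5] the structure of the centralizer of a good element. -/
theorem good_split [Finite G] {m n : ℕ} (hyp : Hyp G m n) {a : G} {s : ℕ} [Fact s.Prime]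
    (hs : s ∣ m) (ha : (centralizer ({a} : Set G)).index = m)
    (hord : ∃ k : ℕ, orderOf a = s ^ k) :
    ∃ Sa N : Subgroup G, Sa ⊔ N = centralizer ({a} : Set G) ∧ Sa ⊓ N = ⊥ ∧ IsPGroup s Sa ∧
      (Nat.card N).Coprime s ∧
      Nat.card Sa * Nat.card N = Nat.card (centralizer ({a} : Set G)) ∧
      (∀ c ∈ centralizer ({a} : Set G), ∀ x ∈ Sa, c * x * c⁻¹ ∈ Sa) ∧
      (∀ c ∈ centralizer ({a} : Set G), ∀ x ∈ N, c * x * c⁻¹ ∈ N) ∧
      (∀ x ∈ Sa, ∀ y ∈ N, x * y = y * x) ∧
      (∀ y : ↥N, (centralizer ({y} : Set ↥N)).index = 1 ∨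
        (centralizer ({y} : Set ↥N)).index = n) := by
  have hsP : s.Prime := Fact.out
  obtain ⟨k, hk⟩ := hord
  have hsn : ¬ s ∣ n := by
    intro hdn
    have h1 : s ∣ Nat.gcd m n := Nat.dvd_gcd hs hdn
    rw [hyp.2.2.2.1] at h1
    exact hsP.one_lt.ne' (Nat.dvd_one.mp h1)
  -- [B4] inside `C(a)`
  have hB4 : ∀ y : ↥(centralizer ({a} : Set G)), (orderOf y).Coprime s →
      (centralizer ({y} : Set ↥(centralizer ({a} : Set G)))).index = 1 ∨
        (centralizer ({y} : Set ↥(centralizer ({a} : Set G)))).index = n := by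
    intro y hy
    rw [idx_subtype]
    apply relIndex_cases hyp ha
    · have h1 := y.2
      simp only [mem_centralizer_iff, Set.mem_singleton_iff, forall_eq] at h1
      exact h1
    · rw [hk, Subgroup.orderOf_coe]
      exact Nat.Coprime.pow_left k hy.symm
  obtain ⟨P⟩ : Nonempty (Sylow s ↥(centralizer ({a} : Set G))) := inferInstance
  obtain ⟨hPn, H, hHn, hHs, hdisj, hsup⟩ := Cfsg.Agent.S4035.result (p := s)
    (G := ↥(centralizer ({a} : Set G))) (fun y hy => by
      rw [Cfsg.Agent.Lib.Helper67.ncard_conjClasses_carrier]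
      rcases hB4 y hy with h | h
      · rw [h]
        exact fun h1 => hsP.one_lt.ne' (Nat.dvd_one.mp h1)
      · rw [h]
        exact hsn) P
  haveI := hPn
  haveI := hHn
  have hcomm : ∀ x ∈ (P : Subgroup ↥(centralizer ({a} : Set G))), ∀ y ∈ H, x * y = y * x :=
    fun x hx y hy => Subgroup.commute_of_normal_of_disjoint _ H hPn hHn
      (disjoint_iff.mpr hdisj) x y hx hy
  have hcompl : Subgroup.IsComplement' (P : Subgroup ↥(centralizer ({a} : Set G))) H := by
    apply Subgroup.isComplement'_of_disjoint_and_mul_eq_univ (disjoint_iff.mpr hdisj)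
    rw [← Subgroup.mul_normal, hsup]
    rfl
  have hcardPH : Nat.card (P : Subgroup ↥(centralizer ({a} : Set G))) * Nat.card H
      = Nat.card ↥(centralizer ({a} : Set G)) := hcompl.card_mul_card
  have hHco : (Nat.card H).Coprime s := ((Nat.Prime.coprime_iff_not_dvd hsP).mpr hHs).symm
  -- the class sizes of `H`
  have hlast : ∀ y : ↥H, (centralizer ({y} : Set ↥H)).index = 1 ∨
      (centralizer ({y} : Set ↥H)).index = n := by
    intro y
    have hyco : (orderOf (y : ↥(centralizer ({a} : Set G)))).Coprime s := by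
      have h1 : orderOf (y : ↥(centralizer ({a} : Set G))) ∣ Nat.card H := by
        rw [Subgroup.orderOf_coe]
        exact orderOf_dvd_natCard y
      exact Nat.Coprime.coprime_dvd_left h1 hHco
    have hDidx := hB4 (y : ↥(centralizer ({a} : Set G))) hyco
    have hPD : (P : Subgroup ↥(centralizer ({a} : Set G))) ≤
        centralizer ({(y : ↥(centralizer ({a} : Set G)))} : Set ↥(centralizer ({a} : Set G))) := by
      intro x hx
      simp only [mem_centralizer_iff, Set.mem_singleton_iff, forall_eq]
      exact (hcomm x hx y y.2).symm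
    have hDH : centralizer ({(y : ↥(centralizer ({a} : Set G)))} :
        Set ↥(centralizer ({a} : Set G))) ⊔ H = ⊤ := by
      rw [eq_top_iff, ← hsup]
      exact sup_le_sup_right hPD H
    have h1 := Subgroup.relIndex_sup_right
      (H := centralizer ({(y : ↥(centralizer ({a} : Set G)))} :
        Set ↥(centralizer ({a} : Set G)))) (K := H)
    rw [hDH, Subgroup.relIndex_top_right] at h1
    have h2 := Subgroup.relIndex_mul_index (H := H ⊓ centralizer
      ({(y : ↥(centralizer ({a} : Set G)))} : Set ↥(centralizer ({a} : Set G))))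
      (K := centralizer ({(y : ↥(centralizer ({a} : Set G)))} :
        Set ↥(centralizer ({a} : Set G)))) inf_le_right
    have h3 := Subgroup.relIndex_mul_index (H := H ⊓ centralizer
      ({(y : ↥(centralizer ({a} : Set G)))} : Set ↥(centralizer ({a} : Set G))))
      (K := H) inf_le_left
    rw [Subgroup.inf_relIndex_right, ← h1] at h2
    rw [Subgroup.inf_relIndex_left] at h3
    have hH0 : H.index ≠ 0 := Subgroup.index_ne_zero_of_finite
    have h4 : (centralizer ({(y : ↥(centralizer ({a} : Set G)))} :
        Set ↥(centralizer ({a} : Set G)))).relIndex H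
        = (centralizer ({(y : ↥(centralizer ({a} : Set G)))} :
          Set ↥(centralizer ({a} : Set G)))).index := by
      apply Nat.eq_of_mul_eq_mul_right (Nat.pos_of_ne_zero hH0)
      rw [h3, ← h2, mul_comm]
    rw [idx_subtype, h4]
    exact hDidx
  refine ⟨(P : Subgroup ↥(centralizer ({a} : Set G))).map (centralizer ({a} : Set G)).subtype,
    H.map (centralizer ({a} : Set G)).subtype, ?_, ?_, ?_, ?_, ?_, ?_, ?_, ?_, ?_⟩
  · rw [← Subgroup.map_sup, hsup, ← MonoidHom.range_eq_map, Subgroup.range_subtype]
  · rw [← Subgroup.map_inf _ _ _ (Subgroup.subtype_injective _), hdisj, Subgroup.map_bot]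
  · exact P.isPGroup'.map _
  · rw [Subgroup.card_subtype]
    exact hHco
  · rw [Subgroup.card_subtype, Subgroup.card_subtype, hcardPH]
  · rintro c hc x ⟨x', hx', rfl⟩
    exact ⟨⟨c, hc⟩ * x' * ⟨c, hc⟩⁻¹, hPn.conj_mem x' hx' ⟨c, hc⟩, rfl⟩
  · rintro c hc x ⟨x', hx', rfl⟩
    exact ⟨⟨c, hc⟩ * x' * ⟨c, hc⟩⁻¹, hHn.conj_mem x' hx' ⟨c, hc⟩, rfl⟩
  · rintro x ⟨x', hx', rfl⟩ y ⟨y', hy', rfl⟩
    exact congrArg Subtype.val (hcomm x' hx' y' hy')
  · intro y
    have h5 := hlast ((H.equivMapOfInjective (centralizer ({a} : Set G)).subtype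
      (Subgroup.subtype_injective _)).symm y)
    rw [← idx_mulEquiv (H.equivMapOfInjective (centralizer ({a} : Set G)).subtype
      (Subgroup.subtype_injective _))] at h5
    simpa using h5

end Cfsg.Agent.Lib.Helper71.CS3
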