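import Mathlib
import Cfsg.Agent.Lib.Helper71.CS3.Basics5
import Cfsg.Agent.Lib.Helper79.CS3.EndDefs

/-!
# CS3 (S4284), part [END]: the basics [B0], [B2], [B3], [B4] in the shapes of `EndDefs`
-/

set_option autoImplicit false

namespace Cfsg.Agent.Lib.Helper71.CS3

open Subgroup Cfsg.Agent.Lib.Helper81.CS3

universe u

/-- [B3] an element of maximal index: `C(w) ≤ C(y)` for `y ∈ C(w)` of coprime order. -/
theorem cent_le_of_idx_mn {G : Type u} [Group G] [Finite G] {m n : ℕ} (hyp : Hyp G m n)
    {w y : G} (hw : (centralizer ({w} : Set G)).index = m * n) (hc : Commute w y)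
    (hco : (orderOf w).Coprime (orderOf y)) :
    centralizer ({w} : Set G) ≤ centralizer ({y} : Set G) := by
  have hm : 1 < m := hyp.2.1
  have hn : 1 < n := hyp.2.2.1
  have h1 := cent_mul_coprime w y hc hco
  have h2 : (centralizer ({w} : Set G) ⊓ centralizer ({y} : Set G)).relIndex
      (centralizer ({w} : Set G)) * (centralizer ({w} : Set G)).index
        = (centralizer ({w} : Set G) ⊓ centralizer ({y} : Set G)).index :=
    Subgroup.relIndex_mul_index inf_le_left
  rw [Subgroup.inf_relIndex_left, hw, ← h1] at h2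
  rw [← Subgroup.relIndex_eq_one]
  have hmn : 0 < m * n := Nat.mul_pos (by omega) (by omega)
  rcases idx_cases hyp (w * y) with h | h | h
  · rw [h] at h2
    have h3 : m * n ∣ 1 := Dvd.intro_left _ h2
    have h4 := Nat.dvd_one.mp h3
    have h5 : m ∣ 1 := Dvd.intro _ h4
    have h6 := Nat.dvd_one.mp h5
    omega
  · rw [h] at h2
    exfalso
    have h3 : (centralizer ({y} : Set G)).relIndex (centralizer ({w} : Set G)) * n * m
        = 1 * m := by
      rw [one_mul]
      calc (centralizer ({y} : Set G)).relIndex (centralizer ({w} : Set G)) * n * m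
          = (centralizer ({y} : Set G)).relIndex (centralizer ({w} : Set G)) * (m * n) := by
            ring
        _ = m := h2
    have h4 := Nat.eq_of_mul_eq_mul_right (by omega : 0 < m) h3
    have h5 : n ∣ 1 := Dvd.intro_left _ h4
    have h6 := Nat.dvd_one.mp h5
    omega
  · rw [h] at h2
    exact Nat.eq_of_mul_eq_mul_right hmn (by rw [h2, one_mul])

theorem pkgB0 : Cfsg.Agent.Lib.Helper79.CS3.PkgB0.{u} := by
  intro G _ _ m n hyp r hr hd
  exact prime_dvd_mul hyp hr hd

theorem pkgB2 : Cfsg.Agent.Lib.Helper79.CS3.PkgB2.{u} := by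
  intro G _ _ x y hc hco
  exact cent_mul_coprime x y hc hco

theorem pkgB3 : Cfsg.Agent.Lib.Helper79.CS3.PkgB3.{u} := by
  intro G _ _ m n hyp w y hw hc hco
  exact cent_le_of_idx_mn hyp hw hc hco

theorem pkgB4 : Cfsg.Agent.Lib.Helper79.CS3.PkgB4.{u} := by
  intro G _ _ m n hyp a y ha hc hco
  exact relIndex_cases hyp ha hc hco

end Cfsg.Agent.Lib.Helper71.CS3
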