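import Mathlib
import Cfsg.Agent.Lib.Helper71.CS3.Basics5
import Cfsg.Agent.Lib.Helper71.CS3.EndII5
import Cfsg.Agent.Lib.Helper41.CS3.GoodDefs

/-!
# CS3 (S4284), part [GOOD]: package [G1] (`C(a) = Sa × N`), from `good_split` ([B5])
-/

set_option autoImplicit false

namespace Cfsg.Agent.Lib.Helper71.CS3

open Subgroup Cfsg.Agent.Lib.Helper81.CS3 Cfsg.Agent.Lib.Helper41.CS3

universe u

theorem pkgG1 : PkgG1.{u} := by
  intro G _ _ m n hyp s a hgood
  haveI : Fact s.Prime := ⟨hgood.sp⟩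
  obtain ⟨Sa, N, hsup, -, hpS, hcop, -, -, -, hcomm, hcls⟩ :=
    good_split hyp hgood.sm hgood.ixa hgood.prim
  refine ⟨Sa, N, ⟨hcomm, hsup, hpS, hcop, ?_⟩⟩
  intro y hy
  have h1 := hcls ⟨y, hy⟩
  rw [idx_subtype] at h1
  have h2 := card_inf_mul_relIndex_ii5 N (centralizer ({y} : Set G))
  rw [inf_comm] at h2
  rcases h1 with h | h
  · left
    rw [h, mul_one] at h2
    exact h2.symm
  · right
    rw [h, mul_comm] at h2
    exact h2.symm

end Cfsg.Agent.Lib.Helper71.CS3
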