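import Mathlib
import Cfsg.Agent.Lib.Helper71.CS3.EndB
import Cfsg.Agent.Lib.Helper71.CS3.EndII5
import Cfsg.Agent.Lib.Helper41.CS3.GoodDefs

/-!
# CS3 (S4284), part [GOOD]: package [S2] (Step 2: `Sa` is abelian, `C_G(T) ≤ C(a)`)
-/

set_option autoImplicit false

namespace Cfsg.Agent.Lib.Helper71.CS3

open Subgroup Cfsg.Agent.Lib.Helper81.CS3 Cfsg.Agent.Lib.Helper41.CS3

universe u

/-- For elementwise commuting subgroups, `|H ⊔ K|` divides `|H| |K|`. -/
theorem card_sup_dvd_of_comm {G : Type u} [Group G] (H K : Subgroup G)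
    (h : ∀ x ∈ H, ∀ y ∈ K, x * y = y * x) :
    Nat.card (H ⊔ K : Subgroup G) ∣ Nat.card H * Nat.card K := by
  have hr := MonoidHom.noncommCoprod_range H.subtype K.subtype (fun x y => h x x.2 y y.2)
  rw [Subgroup.range_subtype, Subgroup.range_subtype] at hr
  rw [← hr, ← Nat.card_prod]
  exact Subgroup.card_range_dvd _

/-- If `H` and `K` commute elementwise with `L`, so does `H ⊔ K`. -/
theorem sup_comm_of_comm {G : Type u} [Group G] {H K L : Subgroup G}
    (h1 : ∀ x ∈ H, ∀ y ∈ L, x * y = y * x) (h2 : ∀ x ∈ K, ∀ y ∈ L, x * y = y * x) :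
    ∀ x ∈ H ⊔ K, ∀ y ∈ L, x * y = y * x := by
  have hle : H ⊔ K ≤ centralizer (L : Set G) := by
    apply sup_le
    · intro x hx
      rw [mem_centralizer_iff]
      intro y hy
      exact (h1 x hx y hy).symm
    · intro x hx
      rw [mem_centralizer_iff]
      intro y hy
      exact (h2 x hx y hy).symm
  intro x hx y hy
  exact ((mem_centralizer_iff.mp (hle hx)) y hy).symm

theorem pkgS2 : PkgS2.{u} := by
  intro G _ _ m n hyp s t a Sa T B hgood hbad y1 hy1T hy1
  have hsP := hgood.sp
  have htP := hbad.tp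
  haveI : Fact s.Prime := ⟨hsP⟩
  have hm1 : 1 < m := hyp.2.1
  have hn1 : 1 < n := hyp.2.2.1
  have hcop : m.Coprime n := hyp.2.2.2.1
  obtain ⟨k, hk⟩ := hbad.tn
  have htn : t ∣ n := by
    rcases Nat.eq_zero_or_pos k with rfl | hkpos
    · rw [pow_zero] at hk
      omega
    · rw [hk]
      exact dvd_pow_self t hkpos.ne'
  have hst : s ≠ t := by
    rintro rfl
    have h1 : s ∣ Nat.gcd m n := Nat.dvd_gcd hgood.sm htn
    rw [Nat.Coprime.gcd_eq_one hcop] at h1
    exact hsP.one_lt.ne' (Nat.dvd_one.mp h1)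
  have hstc : Nat.Coprime s t := (Nat.coprime_primes hsP htP).mpr hst
  have hordS : ∀ u ∈ Sa, ∃ j : ℕ, orderOf u = s ^ j := by
    intro u hu
    obtain ⟨j, hj⟩ := (IsPGroup.iff_orderOf.mp hbad.pS) ⟨u, hu⟩
    rw [Subgroup.orderOf_mk] at hj
    exact ⟨j, hj⟩
  have hordT : ∀ u ∈ T, ∃ j : ℕ, orderOf u = t ^ j := by
    intro u hu
    haveI : Fact t.Prime := ⟨htP⟩
    obtain ⟨j, hj⟩ := (IsPGroup.iff_orderOf.mp hbad.pT) ⟨u, hu⟩
    rw [Subgroup.orderOf_mk] at hj
    exact ⟨j, hj⟩
  obtain ⟨j1, hj1⟩ := hordT y1 hy1T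
  have hSaC : Sa ≤ Cn a := by
    rw [← hbad.sup]
    exact le_sup_of_le_left le_sup_left
  have hTC : T ≤ Cn a := by
    rw [← hbad.sup]
    exact le_sup_of_le_left le_sup_right
  have hBC : B ≤ Cn a := by
    rw [← hbad.sup]
    exact le_sup_right
  have key : Subgroup.centralizer (T : Set G) ≤ Cn a ∧ Ab Sa := by
    rcases hy1 with hα | ⟨hβ1, hβ2⟩
    · -- (alpha)
      have hy1a : Commute y1 a := by
        have h1 := hTC hy1T
        simp only [mem_centralizer_iff, Set.mem_singleton_iff, forall_eq] at h1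
        exact h1.symm
      obtain ⟨ka, hka⟩ := hgood.prim
      have hco : (orderOf y1).Coprime (orderOf a) := by
        rw [hj1, hka]
        exact Nat.Coprime.pow _ _ hstc.symm
      have hle : Cn y1 ≤ Cn a := cent_le_of_idx_mn hyp hα hy1a hco
      constructor
      · intro x hx
        apply hle
        rw [mem_centralizer_iff] at hx
        simp only [mem_centralizer_iff, Set.mem_singleton_iff, forall_eq]
        exact hx y1 hy1T
      · intro u hu u' hu'
        obtain ⟨ju, hju⟩ := hordS u hu
        have hy1u : Commute y1 u := (hbad.sa_t u hu y1 hy1T).symm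
        have hco' : (orderOf y1).Coprime (orderOf u) := by
          rw [hj1, hju]
          exact Nat.Coprime.pow _ _ hstc.symm
        have hle' : Cn y1 ≤ Cn u := cent_le_of_idx_mn hyp hα hy1u hco'
        have hu'mem : u' ∈ Cn y1 := by
          simp only [mem_centralizer_iff, Set.mem_singleton_iff, forall_eq]
          exact (hbad.sa_t u' hu' y1 hy1T).symm
        have h2 := hle' hu'mem
        simp only [mem_centralizer_iff, Set.mem_singleton_iff, forall_eq] at h2
        exact h2
    · -- (beta)
      have hCle : Cn a ≤ Cn y1 := by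
        rw [← hbad.sup]
        apply sup_le (sup_le ?_ ?_) ?_
        · intro x hx
          simp only [mem_centralizer_iff, Set.mem_singleton_iff, forall_eq]
          exact (hbad.sa_t x hx y1 hy1T).symm
        · intro x hx
          simp only [mem_centralizer_iff, Set.mem_singleton_iff, forall_eq]
          exact hβ1 x hx
        · intro x hx
          simp only [mem_centralizer_iff, Set.mem_singleton_iff, forall_eq]
          exact hbad.t_b y1 hy1T x hx
      have hix : ix y1 = m := by
        have hdvd : ix y1 ∣ ix a := Subgroup.index_dvd_of_le hCle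
        rw [hgood.ixa] at hdvd
        rcases idx_cases hyp y1 with h | h | h
        · exact absurd ((idx_eq_one_iff y1).mp h) hβ2
        · exact h
        · exfalso
          rw [show ix y1 = m * n from h] at hdvd
          have h3 : m * n ∣ m * 1 := by rwa [mul_one]
          have h4 : n ∣ 1 := (Nat.mul_dvd_mul_iff_left (by omega)).mp h3
          have h5 := Nat.dvd_one.mp h4
          omega
      have hCeq : Cn a = Cn y1 := by
        apply Subgroup.eq_of_le_of_card_ge hCle
        have h1 := Subgroup.card_mul_index (Cn a)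
        have h2 := Subgroup.card_mul_index (Cn y1)
        rw [show (Cn a).index = m from hgood.ixa] at h1
        rw [show (Cn y1).index = m from hix] at h2
        have h3 : Nat.card (Cn y1) * m = Nat.card (Cn a) * m := by rw [h1, h2]
        exact (Nat.eq_of_mul_eq_mul_right (by omega) h3).le
      constructor
      · intro x hx
        rw [hCeq]
        rw [mem_centralizer_iff] at hx
        simp only [mem_centralizer_iff, Set.mem_singleton_iff, forall_eq]
        exact hx y1 hy1T
      · intro u hu u' hu'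
        obtain ⟨ju, hju⟩ := hordS u hu
        have hy1u : Commute y1 u := (hbad.sa_t u hu y1 hy1T).symm
        have hco' : (orderOf y1).Coprime (orderOf u) := by
          rw [hj1, hju]
          exact Nat.Coprime.pow _ _ hstc.symm
        have hrel := relIndex_cases hyp hix hy1u hco'
        have hTB : T ⊔ B ≤ Cn u ⊓ Cn y1 := by
          apply sup_le
          · intro x hx
            rw [mem_inf]
            refine ⟨?_, hCle (hTC hx)⟩
            simp only [mem_centralizer_iff, Set.mem_singleton_iff, forall_eq]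
            exact hbad.sa_t u hu x hx
          · intro x hx
            rw [mem_inf]
            refine ⟨?_, hCle (hBC hx)⟩
            simp only [mem_centralizer_iff, Set.mem_singleton_iff, forall_eq]
            exact hbad.sa_b u hu x hx
        have hc1 := card_inf_mul_relIndex_ii5 (Cn y1) (Cn u)
        have hc2 : Nat.card (T ⊔ B : Subgroup G) ∣ Nat.card (Cn y1 ⊓ Cn u : Subgroup G) := by
          rw [inf_comm]
          exact Subgroup.card_dvd_of_le hTB
        have hSaTB : ∀ x ∈ Sa, ∀ y ∈ T ⊔ B, x * y = y * x := fun x hx y hy =>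
          (sup_comm_of_comm (H := T) (K := B) (L := Sa)
            (fun x' hx' y' hy' => (hbad.sa_t y' hy' x' hx').symm)
            (fun x' hx' y' hy' => (hbad.sa_b y' hy' x' hx').symm) y hy x hx).symm
        have hc3 : Nat.card (Cn y1) ∣ Nat.card Sa * Nat.card (T ⊔ B : Subgroup G) := by
          rw [← hCeq, ← hbad.sup, sup_assoc]
          exact card_sup_dvd_of_comm Sa (T ⊔ B) hSaTB
        have hrdvd : (Cn u).relIndex (Cn y1) ∣ Nat.card Sa := by
          obtain ⟨e, he⟩ := hc2
          rw [← hc1, he] at hc3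
          have hpos : 0 < Nat.card (T ⊔ B : Subgroup G) := Nat.card_pos
          have h4 : Nat.card (T ⊔ B : Subgroup G) * (e * (Cn u).relIndex (Cn y1)) ∣
              Nat.card (T ⊔ B : Subgroup G) * Nat.card Sa := by
            rw [← mul_assoc, mul_comm (Nat.card (T ⊔ B : Subgroup G)) (Nat.card Sa)]
            exact hc3
          exact (Dvd.intro_left _ rfl).trans ((Nat.mul_dvd_mul_iff_left hpos).mp h4)
        have hrel1 : (Cn u).relIndex (Cn y1) = 1 := by
          rcases hrel with h | h
          · exact h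
          · exfalso
            rw [h] at hrdvd
            obtain ⟨jS, hjS⟩ := IsPGroup.iff_card.mp hbad.pS
            rw [hjS] at hrdvd
            have h5 : t ∣ s ^ jS := htn.trans hrdvd
            have h6 := (Nat.prime_dvd_prime_iff_eq htP hsP).mp (htP.dvd_of_dvd_pow h5)
            exact hst h6.symm
        have hle' : Cn y1 ≤ Cn u := Subgroup.relIndex_eq_one.mp hrel1
        have hu'mem : u' ∈ Cn y1 := hCle (hSaC hu')
        have h2 := hle' hu'mem
        simp only [mem_centralizer_iff, Set.mem_singleton_iff, forall_eq] at h2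
        exact h2
  obtain ⟨hcent, hSab⟩ := key
  have hAT : ∀ x ∈ Sa ⊔ B, ∀ y ∈ T, x * y = y * x :=
    sup_comm_of_comm (H := Sa) (K := B) (L := T) hbad.sa_t
      (fun x hx y hy => (hbad.t_b y hy x hx).symm)
  have hAab : Ab (Sa ⊔ B) := by
    have h1 : ∀ x ∈ Sa ⊔ B, ∀ y ∈ Sa, x * y = y * x :=
      sup_comm_of_comm (H := Sa) (K := B) (L := Sa) hSab
        (fun x hx y hy => (hbad.sa_b y hy x hx).symm)
    have h2 : ∀ x ∈ Sa ⊔ B, ∀ y ∈ B, x * y = y * x :=
      sup_comm_of_comm (H := Sa) (K := B) (L := B) hbad.sa_b hbad.b_ab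
    intro x hx y hy
    exact sup_comm_of_comm (H := Sa) (K := B) (L := Sa ⊔ B)
      (fun x' hx' y' hy' => (h1 y' hy' x' hx').symm)
      (fun x' hx' y' hy' => (h2 y' hy' x' hx').symm) x hx y hy
  refine ⟨Sa ⊔ B, ⟨htP, hbad.tn, hAab, hAT, ?_, ?_, hbad.pT, hbad.sylT, hbad.nab, hbad.cls,
    hcent⟩⟩
  · rw [← hbad.sup, sup_right_comm]
  · have h1 := card_sup_dvd_of_comm Sa B hbad.sa_b
    obtain ⟨jS, hjS⟩ := IsPGroup.iff_card.mp hbad.pS
    rw [hjS] at h1
    exact Nat.Coprime.coprime_dvd_left h1
      (Nat.Coprime.mul_left (Nat.Coprime.pow_left jS hstc) hbad.copB)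

end Cfsg.Agent.Lib.Helper71.CS3
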